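import Mathlib

set_option autoImplicit false

/-! helper96: IC-ABS, the abstract machine of helper23's project IC (S5751, iterated cores): pure
group theory.  The statement `StAbs'` below is a verbatim copy of `Cfsg.Agent.H23.Ic.StAbs`
(`Cfsg/Agent/H23/IcDefs.lean`), restated here so that this file only needs Mathlib. -/

namespace Cfsg.Agent.H96.Ic

section core

variable {G : Type*} [Group G]

/-- The core in `M` of `Y`. -/
def coreIn (M Y : Subgroup G) : Subgroup G := (Y.subgroupOf M).normalCore.map M.subtype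

theorem coreIn_le_left (M Y : Subgroup G) : coreIn M Y ≤ M := by
  rintro x ⟨m, -, rfl⟩
  exact m.2

theorem coreIn_le_right (M Y : Subgroup G) : coreIn M Y ≤ Y := by
  rintro x ⟨m, hm, rfl⟩
  exact Subgroup.mem_subgroupOf.mp (Subgroup.normalCore_le _ hm)

theorem coreIn_conj (M Y : Subgroup G) (p : G) (hp : p ∈ M) (x : G) (hx : x ∈ coreIn M Y) :
    p * x * p⁻¹ ∈ coreIn M Y := by
  obtain ⟨m, hm, rfl⟩ := hx
  exact ⟨⟨p, hp⟩ * m * ⟨p, hp⟩⁻¹, (Subgroup.normalCore_normal _).conj_mem m hm ⟨p, hp⟩, rfl⟩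

theorem le_coreIn (M Y N : Subgroup G) (hNM : N ≤ M) (hNY : N ≤ Y)
    (hN : ∀ p ∈ M, ∀ x ∈ N, p * x * p⁻¹ ∈ N) : N ≤ coreIn M Y := by
  intro x hx
  refine ⟨⟨x, hNM hx⟩, ?_, rfl⟩
  haveI : (N.subgroupOf M).Normal := ⟨fun a ha b => by
    rw [Subgroup.mem_subgroupOf] at ha ⊢
    exact hN b b.2 a ha⟩
  have hle : N.subgroupOf M ≤ (Y.subgroupOf M).normalCore := by
    rw [Subgroup.normal_le_normalCore]
    intro a ha
    rw [Subgroup.mem_subgroupOf] at ha ⊢
    exact hNY ha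
  exact hle (Subgroup.mem_subgroupOf.mpr hx)

/-- The conjugate `n X n⁻¹` of a subgroup. -/
def cj (n : G) (X : Subgroup G) : Subgroup G := X.map (MulAut.conj n).toMonoidHom

theorem mem_cj (n : G) (X : Subgroup G) (x : G) : x ∈ cj n X ↔ n⁻¹ * x * n ∈ X := by
  constructor
  · rintro ⟨y, hy, rfl⟩
    have e : n⁻¹ * ((MulAut.conj n).toMonoidHom y) * n = y := by
      show n⁻¹ * (n * y * n⁻¹) * n = y
      group
    rw [e]
    exact hy
  · intro h
    refine ⟨n⁻¹ * x * n, h, ?_⟩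
    show n * (n⁻¹ * x * n) * n⁻¹ = x
    group

theorem cj_mono (n : G) {X Y : Subgroup G} (h : X ≤ Y) : cj n X ≤ cj n Y := Subgroup.map_mono h

theorem sq_conj (n : G) (hn : n * n = 1) (x : G) : n⁻¹ * (n⁻¹ * x * n) * n = x := by
  have h1 : n⁻¹ = n := inv_eq_of_mul_eq_one_left hn
  rw [h1]
  calc n * (n * x * n) * n = (n * n) * x * (n * n) := by group
    _ = x := by rw [hn, one_mul, mul_one]

theorem cj_cj (n : G) (hn : n * n = 1) (X : Subgroup G) : cj n (cj n X) = X := by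
  ext x
  rw [mem_cj, mem_cj, sq_conj n hn]

theorem cj_inf (n : G) (X Y : Subgroup G) : cj n (X ⊓ Y) = cj n X ⊓ cj n Y := by
  ext x
  simp only [mem_cj, Subgroup.mem_inf]

theorem coreIn_cj (n : G) (hn : n * n = 1) (M Y : Subgroup G) :
    coreIn (cj n M) (cj n Y) = cj n (coreIn M Y) := by
  apply le_antisymm
  · have h1 : cj n (coreIn (cj n M) (cj n Y)) ≤ coreIn M Y := by
      apply le_coreIn
      · have := cj_mono n (coreIn_le_left (cj n M) (cj n Y))
        rwa [cj_cj n hn] at this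
      · have := cj_mono n (coreIn_le_right (cj n M) (cj n Y))
        rwa [cj_cj n hn] at this
      · intro p hp x hx
        rw [mem_cj] at hx ⊢
        have hq : n⁻¹ * p * n ∈ cj n M := by
          rw [mem_cj, sq_conj n hn]
          exact hp
        have := coreIn_conj (cj n M) (cj n Y) (n⁻¹ * p * n) hq (n⁻¹ * x * n) hx
        have e : n⁻¹ * p * n * (n⁻¹ * x * n) * (n⁻¹ * p * n)⁻¹ = n⁻¹ * (p * x * p⁻¹) * n := by group
        rwa [e] at this
    have := cj_mono n h1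
    rwa [cj_cj n hn] at this
  · apply le_coreIn
    · exact cj_mono n (coreIn_le_left M Y)
    · exact cj_mono n (coreIn_le_right M Y)
    · intro p hp x hx
      rw [mem_cj] at hp hx ⊢
      have := coreIn_conj M Y (n⁻¹ * p * n) hp (n⁻¹ * x * n) hx
      have e : n⁻¹ * p * n * (n⁻¹ * x * n) * (n⁻¹ * p * n)⁻¹ = n⁻¹ * (p * x * p⁻¹) * n := by group
      rwa [e] at this

/-- The two sequences of iterated cores. -/
def seqAB (P : Subgroup G) (n : G) : ℕ → Subgroup G × Subgroup G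
  | 0 => (P, cj n P)
  | i + 1 => (coreIn P ((seqAB P n i).1 ⊓ (seqAB P n i).2),
      coreIn (cj n P) ((seqAB P n i).1 ⊓ (seqAB P n i).2))

/-- The abstract machine inside one group. -/
theorem abs_core (P : Subgroup G) (n : G) (hn : n * n = 1)
    (R Q : ℕ → Subgroup G) (hPR : P ≤ R 0)
    (hstep : ∀ i < 6, ∀ N : Subgroup G, N ≤ P → (∀ p ∈ P, ∀ x ∈ N, p * x * p⁻¹ ∈ N) → N ≤ R i →
      N ≤ cj n (R i) → N ≤ R (i + 1))
    (hR6 : R 6 = ⊥) (hQ0 : Q 0 ≤ P)
    (hQ : ∀ i, Q (i + 1) ≤ Q i ∧ Q (i + 1) ≤ cj n (Q i) ∧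
      ∀ p ∈ P, ∀ x ∈ Q (i + 1), p * x * p⁻¹ ∈ Q (i + 1))
    (hQ5 : Q 5 ≠ ⊥) :
    (seqAB P n 6).1 = ⊥ ∧ (seqAB P n 5).1 ≠ ⊥ ∧ P.normalCore = ⊥ := by
  set A : ℕ → Subgroup G := fun i => (seqAB P n i).1 with hAdef
  set B : ℕ → Subgroup G := fun i => (seqAB P n i).2 with hBdef
  have hA0 : A 0 = P := rfl
  have hAs : ∀ i, A (i + 1) = coreIn P (A i ⊓ B i) := fun i => rfl
  have hBs : ∀ i, B (i + 1) = coreIn (cj n P) (A i ⊓ B i) := fun i => rfl
  have hB : ∀ i, B i = cj n (A i) := by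
    intro i
    induction i with
    | zero => rfl
    | succ i ih =>
      rw [hBs, hAs, ← coreIn_cj n hn, cj_inf, ← ih, ih, cj_cj n hn, ← ih, inf_comm]
  have hAP : ∀ i, A i ≤ P := by
    intro i
    cases i with
    | zero => exact le_of_eq hA0
    | succ i => rw [hAs]; exact coreIn_le_left _ _
  have hAR : ∀ i, i ≤ 6 → A i ≤ R i := by
    intro i
    induction i with
    | zero => intro _; rw [hA0]; exact hPR
    | succ i ih =>
      intro hi
      have ih' := ih (by omega)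
      apply hstep i (by omega) (A (i + 1))
      · exact hAP (i + 1)
      · intro p hp x hx
        rw [hAs] at hx ⊢
        exact coreIn_conj _ _ p hp x hx
      · rw [hAs]
        exact (coreIn_le_right _ _).trans (inf_le_left.trans ih')
      · rw [hAs]
        refine (coreIn_le_right _ _).trans (inf_le_right.trans ?_)
        rw [hB i]
        exact cj_mono n ih'
  have hQA : ∀ i, Q i ≤ A i := by
    intro i
    induction i with
    | zero => rw [hA0]; exact hQ0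
    | succ i ih =>
      rw [hAs]
      apply le_coreIn
      · exact (hQ i).1.trans (ih.trans (hAP i))
      · refine le_inf ((hQ i).1.trans ih) ((hQ i).2.1.trans ?_)
        rw [hB i]
        exact cj_mono n ih
      · exact (hQ i).2.2
  have hA6 : A 6 = ⊥ := by
    rw [eq_bot_iff, ← hR6]
    exact hAR 6 le_rfl
  have hC : ∀ i, P.normalCore ≤ A i := by
    intro i
    induction i with
    | zero => rw [hA0]; exact Subgroup.normalCore_le P
    | succ i ih =>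
      rw [hAs]
      apply le_coreIn
      · exact Subgroup.normalCore_le P
      · refine le_inf ih ?_
        rw [hB i]
        intro x hx
        rw [mem_cj]
        apply ih
        have := (Subgroup.normalCore_normal P).conj_mem x hx n⁻¹
        rwa [inv_inv] at this
      · intro p _ x hx
        exact (Subgroup.normalCore_normal P).conj_mem x hx p
  refine ⟨hA6, ?_, ?_⟩
  · intro h
    apply hQ5
    rw [eq_bot_iff]
    have := hQA 5
    rwa [show A 5 = ⊥ from h] at this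
  · rw [eq_bot_iff, ← hA6]
    exact hC 6

end core

/-- Verbatim copy of `Cfsg.Agent.H23.Ic.StAbs`. -/
def StAbs' : Prop := ∀ {Γ : Type} [Group Γ] (G₀ P : Subgroup Γ) (_ : P ≤ G₀) (n : Γ) (hnG : n ∈ G₀) (_ : n * n = 1)
  (_ : IsCoatom (P.subgroupOf G₀))
  (_ : (P.subgroupOf G₀).map (MulAut.conj (⟨n, hnG⟩ : ↥G₀)).toMonoidHom ≠ P.subgroupOf G₀)
  (R Q : ℕ → Subgroup Γ) (_ : P ≤ R 0)
  (_ : ∀ i < 6, ∀ N : Subgroup Γ, N ≤ P → (∀ p ∈ P, ∀ x ∈ N, p * x * p⁻¹ ∈ N) → N ≤ R i →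
    N ≤ (R i).map (MulAut.conj n).toMonoidHom → N ≤ R (i + 1))
  (_ : R 6 = ⊥) (_ : Q 0 ≤ P)
  (_ : ∀ i, Q (i + 1) ≤ Q i ∧ Q (i + 1) ≤ (Q i).map (MulAut.conj n).toMonoidHom ∧
    ∀ p ∈ P, ∀ x ∈ Q (i + 1), p * x * p⁻¹ ∈ Q (i + 1))
  (_ : Q 5 ≠ ⊥),
  ∃ (M₁ M₂ : Subgroup ↥G₀) (g : ↥G₀) (A B : ℕ → Subgroup ↥G₀),
    IsCoatom M₁ ∧ M₂ = M₁.map (MulAut.conj g).toMonoidHom ∧ M₁ ≠ M₂ ∧ M₁.normalCore = ⊥ ∧ A 0 = M₁ ∧ B 0 = M₂ ∧
    (∀ i, A (i + 1) = ((A i ⊓ B i).subgroupOf M₁).normalCore.map M₁.subtype) ∧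
    (∀ i, B (i + 1) = ((A i ⊓ B i).subgroupOf M₂).normalCore.map M₂.subtype) ∧ A 6 = ⊥ ∧ A 5 ≠ ⊥

/-- **IC-ABS**. -/
theorem abs : StAbs' := by
  intro Γ _ G₀ P hPG n hnG hnn hco hne R Q hPR hstep hR6 hQ0 hQ hQ5
  have hg : (⟨n, hnG⟩ : ↥G₀) * ⟨n, hnG⟩ = 1 := Subtype.ext hnn
  have hQle : ∀ i, Q i ≤ Q 0 := by
    intro i
    induction i with
    | zero => exact le_rfl
    | succ i ih => exact (hQ i).1.trans ih
  obtain ⟨h6, h5, hcore⟩ := abs_core (P.subgroupOf G₀) (⟨n, hnG⟩ : ↥G₀) hg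
    (fun i => (R i).subgroupOf G₀) (fun i => (Q i).subgroupOf G₀)
    (fun x hx => Subgroup.mem_subgroupOf.mpr (hPR (Subgroup.mem_subgroupOf.mp hx)))
    (by
      intro i hi N hNP hNinv hNR hNc
      have key := hstep i hi (N.map G₀.subtype)
        (by
          rintro _ ⟨x, hx, rfl⟩
          exact Subgroup.mem_subgroupOf.mp (hNP hx))
        (by
          rintro p hp _ ⟨x, hx, rfl⟩
          exact ⟨⟨p, hPG hp⟩ * x * ⟨p, hPG hp⟩⁻¹,
            hNinv ⟨p, hPG hp⟩ (Subgroup.mem_subgroupOf.mpr hp) x hx, rfl⟩)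
        (by
          rintro _ ⟨x, hx, rfl⟩
          exact Subgroup.mem_subgroupOf.mp (hNR hx))
        (by
          rintro _ ⟨x, hx, rfl⟩
          obtain ⟨y, hy, hyx⟩ := hNc hx
          refine ⟨(y : Γ), Subgroup.mem_subgroupOf.mp hy, ?_⟩
          rw [← hyx]
          rfl)
      intro x hx
      exact Subgroup.mem_subgroupOf.mpr (key ⟨x, hx, rfl⟩))
    (by
      show (R 6).subgroupOf G₀ = ⊥
      rw [hR6]
      exact Subgroup.bot_subgroupOf G₀)
    (fun x hx => Subgroup.mem_subgroupOf.mpr (hQ0 (Subgroup.mem_subgroupOf.mp hx)))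
    (by
      intro i
      refine ⟨fun x hx => Subgroup.mem_subgroupOf.mpr ((hQ i).1 (Subgroup.mem_subgroupOf.mp hx)),
        ?_, ?_⟩
      · intro x hx
        rw [mem_cj]
        have h1 : (x : Γ) ∈ cj n (Q i) := (hQ i).2.1 (Subgroup.mem_subgroupOf.mp hx)
        rw [mem_cj] at h1
        exact Subgroup.mem_subgroupOf.mpr h1
      · intro p hp x hx
        exact Subgroup.mem_subgroupOf.mpr
          ((hQ i).2.2 (p : Γ) (Subgroup.mem_subgroupOf.mp hp) (x : Γ) (Subgroup.mem_subgroupOf.mp hx)))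
    (by
      intro hbot
      apply hQ5
      rw [eq_bot_iff]
      intro x hx
      have hxG : x ∈ G₀ := hPG (hQ0 (hQle 5 hx))
      have h1 : (⟨x, hxG⟩ : ↥G₀) ∈ (Q 5).subgroupOf G₀ := Subgroup.mem_subgroupOf.mpr hx
      rw [hbot, Subgroup.mem_bot] at h1
      rw [Subgroup.mem_bot]
      exact congrArg Subtype.val h1)
  exact ⟨P.subgroupOf G₀, cj (⟨n, hnG⟩ : ↥G₀) (P.subgroupOf G₀), ⟨n, hnG⟩,
    fun i => (seqAB (P.subgroupOf G₀) (⟨n, hnG⟩ : ↥G₀) i).1,
    fun i => (seqAB (P.subgroupOf G₀) (⟨n, hnG⟩ : ↥G₀) i).2,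
    hco, rfl, fun h => hne h.symm, hcore, rfl, rfl, fun _ => rfl, fun _ => rfl, h6, h5⟩

end Cfsg.Agent.H96.Ic
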